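import Cfsg.Agent.H664.R1.SplitMore
import Cfsg.Agent.H664.R1.NoFix
import Cfsg.Agent.Characters.GaloisBasic

/-!
# Rank one groups: automorphisms and the principal series (helper212, S4832)

* `ps_aut` : the principal series is invariant under the automorphisms `α` with `α B = B`, `f ∘ α = f`;
* `inv_of_fixed` : characters with `U`-fixed vectors are invariant under such `α` with `α³` inner;
* `dvd_of_cusp` : `q - 1` divides the degree of the characters without `U`-fixed vectors;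
* `ps_T` : the values on regular elements of the torus.
-/

set_option autoImplicit false
set_option linter.unusedSectionVars false

open Cfsg
open scoped ComplexConjugate

namespace Cfsg.Agent.H212.Ext

open Cfsg.Agent.Characters.Core Cfsg.Agent.OddOrderCharacters.Clifford
  Cfsg.Agent.CharactersDeep.MackeyLinear Cfsg.Agent.H681.DegBasic Cfsg.Agent.H664.R1

universe u

variable {G : Type u} [Group G] (D : Split G)

section ps

variable [Fintype G]

theorem ps_aut (f : D.B →* ℂˣ) (α : G ≃* G) (hB : ∀ b, b ∈ D.B → α b ∈ D.B) (hB' : ∀ b, α b ∈ D.B → b ∈ D.B)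
    (hf : ∀ (b : G) (hb : b ∈ D.B), f ⟨α b, hB b hb⟩ = f ⟨b, hb⟩) (x : G) : D.ps f (α x) = D.ps f x := by
  classical
  have := Fintype.ofFinite D.B
  rw [D.ps_def, OddOrderCharacters.Clifford.indFun_apply, OddOrderCharacters.Clifford.indFun_apply]
  congr 1
  refine (Fintype.sum_equiv α.toEquiv _ _ fun y => ?_).symm
  show extendByZero D.B (fun b => (f b : ℂ)) (y⁻¹ * x * y) =
    extendByZero D.B (fun b => (f b : ℂ)) ((α y)⁻¹ * α x * α y)
  rw [← map_inv, ← map_mul, ← map_mul]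
  by_cases h : y⁻¹ * x * y ∈ D.B
  · rw [ext_apply_mem D.B _ _ h, ext_apply_mem D.B _ _ (hB _ h), hf _ h]
  · rw [ext_apply_not_mem D.B _ _ h, ext_apply_not_mem D.B _ _ (fun h' => h (hB' _ h'))]

theorem comp_irr {θ : G → ℂ} (hθ : IsIrrCharacter G θ) (α : G ≃* G) : IsIrrCharacter G (fun x => θ (α x)) :=
  isIrr_comp (α : G →* G) α.surjective hθ

theorem classInner_aut (θ φ : G → ℂ) (α : G ≃* G) :
    classInner (fun x => θ (α x)) (fun x => φ (α x)) = classInner θ φ := by
  rw [classInner_def, classInner_def]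
  congr 1
  exact Fintype.sum_equiv α.toEquiv _ _ fun _ => rfl

/-- Characters with `U`-fixed vectors. -/
theorem inv_of_fixed [Fintype D.U] {θ : G → ℂ} (hθ : IsIrrCharacter G θ)
    (h : classInner (fun u : D.U => θ u) 1 ≠ 0) (α : G ≃* G) (hB : ∀ b, b ∈ D.B → α b ∈ D.B)
    (hB' : ∀ b, α b ∈ D.B → b ∈ D.B)
    (hf : ∀ f : D.B →* ℂˣ, (∀ b : D.B, (b : G) ∈ D.U → f b = 1) → ∀ (b : G) (hb : b ∈ D.B),
      f ⟨α b, hB b hb⟩ = f ⟨b, hb⟩)
    (h3 : ∀ x, θ (α (α (α x))) = θ x) (x : G) : θ (α x) = θ x := by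
  classical
  obtain ⟨f, hfU, hf0⟩ := D.exists_ps hθ h
  have hinv : ∀ x, D.ps f (α x) = D.ps f x := ps_aut D f α hB hB' (hf f hfU)
  have hc : IsCharacter G (D.ps f) := D.isCharacter_ps f
  have hθα : IsIrrCharacter G (fun x => θ (α x)) := comp_irr hθ α
  have h4 : classInner (D.ps f) (fun x => θ (α x)) ≠ 0 := by
    rw [← classInner_aut (D.ps f) θ α] at hf0
    have e : (fun x => D.ps f (α x)) = D.ps f := funext hinv
    rwa [e] at hf0
  by_cases hw : ∃ t, ∃ ht : t ∈ D.T, f ⟨t, D.TB ht⟩ ≠ f ⟨D.w⁻¹ * t * D.w, D.TB (D.wT t ht)⟩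
  · have hirr := D.isIrr_ps f hw
    have e1 : D.ps f = θ := by
      by_contra hne
      exact hf0 (classInner_irr_ne hirr hθ hne)
    rw [← e1]
    exact hinv x
  · push Not at hw
    have h2 := D.norm_ps f hw
    by_contra hne
    have hne' : (⟨θ, hθ⟩ : IrrCharacter G) ≠ ⟨_, hθα⟩ := by
      intro h
      exact hne (congrFun (congrArg Subtype.val h) x).symm
    have h5 := eq_add_of_norm_two hc h2 hne' hf0 h4
    have h6 : ∀ x, D.ps f x = θ x + θ (α x) := fun x => congrFun h5 x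
    have h7 : ∀ y, θ (α (α y)) = θ y := by
      intro y
      have e1 := h6 y
      have e2 := h6 (α y)
      rw [hinv, e1] at e2
      linear_combination -e2
    apply hne
    rw [← h3 x, h7]

/-- The values on regular elements of the torus. -/
theorem ps_T (f : D.B →* ℂˣ) {t : G} (ht : t ∈ D.T) (hreg : ∀ u ∈ D.U, u⁻¹ * t * u ∈ D.T → u = 1) :
    D.ps f t = (f ⟨t, D.TB ht⟩ : ℂ) + (f ⟨D.w⁻¹ * t * D.w, D.TB (D.wT t ht)⟩ : ℂ) := by
  classical
  have := Fintype.ofFinite D.U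
  rw [D.ps_apply f t, ext_apply_mem D.B _ _ (D.TB ht), Finset.sum_eq_single (1 : D.U)]
  · have e : ((1 : D.U) * D.w : G)⁻¹ * t * (((1 : D.U) : G) * D.w) = D.w⁻¹ * t * D.w := by
      rw [Subgroup.coe_one, one_mul]
    rw [e, ext_apply_mem D.B _ _ (D.TB (D.wT t ht))]
  · intro u _ hu
    apply ext_apply_not_mem
    intro h
    apply hu
    apply Subtype.ext
    apply hreg u u.2
    refine D.mem_T_of_conj (b := 1) D.B.one_mem u.2 (D.TB ht) ?_
    rwa [mul_one]
  · intro h
    exact absurd (Finset.mem_univ _) h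

end ps

section free

theorem sum_free {R Ω : Type*} [Group R] [Fintype R] [Fintype Ω] [MulAction R Ω]
    (hfree : ∀ (r : R) (x : Ω), r • x = x → r = 1) (f : Ω → ℂ) (hf : ∀ (r : R) (x : Ω), f (r • x) = f x)
    (hint : ∀ x, IsIntegral ℤ (f x)) : ∃ z, IsIntegral ℤ z ∧ ∑ x, f x = Nat.card R * z := by
  classical
  have hs : ∀ b : Ω, MulAction.stabilizer R b = ⊥ := by
    intro b
    rw [eq_bot_iff]
    intro r hr
    exact Subgroup.mem_bot.2 (hfree r b hr)
  have := Fintype.ofFinite (Quotient (MulAction.orbitRel R Ω))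
  let e := MulAction.selfEquivOrbitsQuotientProd (G := R) (X := Ω) hs
  let g : Quotient (MulAction.orbitRel R Ω) → ℂ := Quotient.lift f (by
    rintro a b ⟨r, hr⟩
    have hr' : r • b = a := hr
    rw [← hr', hf])
  have hg : ∀ x, g (e x).1 = f x := by
    intro x
    have : (e x).1 = Quotient.mk'' x := by
      obtain ⟨p, rfl⟩ := e.symm.surjective x
      rw [e.apply_symm_apply]
      obtain ⟨a, r⟩ := p
      have h1 : e.symm (a, r) ∈ MulAction.orbit R (Quotient.out a) := by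
        refine ⟨r, ?_⟩
        rfl
      have h2 : Quotient.mk'' (e.symm (a, r)) = Quotient.mk'' (Quotient.out a) :=
        (Quotient.eq'' (s₁ := MulAction.orbitRel R Ω)).2 (MulAction.orbitRel_apply.2 h1)
      rw [h2, Quotient.out_eq']
    rw [this]
    rfl
  refine ⟨∑ a, g a, IsIntegral.sum _ fun a _ => ?_, ?_⟩
  · obtain ⟨x, rfl⟩ := Quotient.exists_rep a
    exact hint x
  · calc ∑ x, f x = ∑ x, g (e x).1 := Finset.sum_congr rfl fun x _ => (hg x).symm
      _ = ∑ p : Quotient (MulAction.orbitRel R Ω) × R, g p.1 := Fintype.sum_equiv e _ _ fun _ => rfl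
      _ = _ := by
        rw [Fintype.sum_prod_type]
        simp only [Finset.sum_const, Finset.card_univ, nsmul_eq_mul, ← Nat.card_eq_fintype_card]
        rw [← Finset.mul_sum]

/-- `q - 1` divides the degree of the characters without `U`-fixed vectors. -/
theorem dvd_of_cusp [Finite G] {X : Subgroup G} (hXU : X ≤ D.U)
    (hX : ∀ x ∈ X, x ≠ 1 → ∀ y ∈ X, y ≠ 1 → ∃ g : G, g * x * g⁻¹ = y) (hX2 : 2 ≤ Nat.card X)
    {R : Type*} [Group R] [Fintype R] (ρ : R →* G) (hR : Nat.card R = Nat.card X - 1)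
    (hρU : ∀ r, ∀ u ∈ D.U, ρ r * u * (ρ r)⁻¹ ∈ D.U) (hρX : ∀ r, ∀ u ∈ X, ρ r * u * (ρ r)⁻¹ ∈ X)
    (hfree : ∀ r, ∀ u ∈ D.U, u ∉ X → ρ r * u * (ρ r)⁻¹ = u → r = 1)
    {θ : G → ℂ} (hθ : IsIrrCharacter G θ) [Fintype D.U] (h : ∑ u : D.U, θ u = 0) {n : ℕ} (hn : θ 1 = n) :
    Nat.card R ∣ n := by
  classical
  have := Fintype.ofFinite X
  have hcl := isIrr_isClassFunction hθ
  have hint : ∀ x, IsIntegral ℤ (θ x) := fun x =>
    Characters.GaloisBasic.isIntegral_apply (isIrr_isCharacter hθ) _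
  obtain ⟨z, hz⟩ : ∃ z : X, z ≠ 1 := by
    have : Nontrivial X := Finite.one_lt_card_iff_nontrivial.1 (by omega)
    exact exists_ne 1
  -- the action on `U \ X`
  let _ : MulAction R {u : D.U // (u : G) ∉ X} :=
    { smul := fun r u => ⟨⟨ρ r * u.1 * (ρ r)⁻¹, hρU r _ u.1.2⟩, fun hu => u.2 (by
        have h1 := hρX r⁻¹ _ hu
        have h2 : ρ r⁻¹ * (ρ r * (u.1 : G) * (ρ r)⁻¹) * (ρ r⁻¹)⁻¹ = u.1 := by
          rw [map_inv]; group
        rwa [h2] at h1)⟩
      one_smul := fun u => by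
        apply Subtype.ext
        apply Subtype.ext
        show ρ 1 * (u.1 : G) * (ρ 1)⁻¹ = u.1
        rw [map_one]; group
      mul_smul := fun r s u => by
        apply Subtype.ext
        apply Subtype.ext
        show ρ (r * s) * (u.1 : G) * (ρ (r * s))⁻¹ = ρ r * (ρ s * (u.1 : G) * (ρ s)⁻¹) * (ρ r)⁻¹
        rw [map_mul]; group }
  have hsm : ∀ (r : R) (u : {u : D.U // (u : G) ∉ X}), (((r • u).1 : D.U) : G) = ρ r * u.1 * (ρ r)⁻¹ := fun _ _ => rfl
  obtain ⟨y, hy, hsum⟩ := sum_free (R := R) (Ω := {u : D.U // (u : G) ∉ X}) (fun r u hu =>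
      hfree r _ u.1.2 u.2 (by rw [← hsm, hu])) (fun u => θ (u.1 : G)) (fun r u => by
      show θ (((r • u).1 : D.U) : G) = θ (u.1 : G)
      rw [hsm]; exact hcl _ _) (fun u => hint _)
  -- the sum over `X`
  have hXsum : ∑ x : X, θ x = n + (Nat.card X - 1 : ℕ) * θ z := by
    have h1 : ∀ x : X, θ x = (if x = 1 then (n : ℂ) - θ z else 0) + θ z := by
      intro x
      split_ifs with hx
      · rw [hx, Subgroup.coe_one, hn]; ring
      · rw [zero_add]
        obtain ⟨g, hg⟩ := hX z z.2 (fun h' => hz (Subtype.ext h')) x x.2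
          (fun h' => hx (Subtype.ext h'))
        rw [← hg]
        exact hcl _ _
    rw [Finset.sum_congr rfl fun x _ => h1 x, Finset.sum_add_distrib,
      Finset.sum_ite_eq' Finset.univ, if_pos (Finset.mem_univ _), Finset.sum_const,
      Finset.card_univ, nsmul_eq_mul, ← Nat.card_eq_fintype_card, Nat.cast_sub (by omega)]
    push_cast
    ring
  have hsplit : ∑ u : D.U, θ u = ∑ x : X, θ x + ∑ u : {u : D.U // (u : G) ∉ X}, θ (u.1 : G) := by
    rw [← Fintype.sum_subtype_add_sum_subtype (fun u : D.U => (u : G) ∈ X)]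
    congr 1
    refine Fintype.sum_equiv ⟨fun u => ⟨(u.1 : G), u.2⟩, fun x => ⟨⟨x, hXU x.2⟩, x.2⟩, fun _ => rfl, fun _ => rfl⟩ _ _
      fun _ => rfl
  rw [hsplit, hXsum, hsum, ← hR] at h
  have h2 : (n : ℂ) = Nat.card R * (-(θ z + y)) := by linear_combination h
  have hk0 : (Nat.card R : ℂ) ≠ 0 := by
    have : Nat.card R ≠ 0 := by omega
    exact_mod_cast this
  have h3 : IsIntegral ℤ (-(θ z + y)) := ((hint _).add hy).neg
  obtain ⟨e, he⟩ := (h3.exists_int_iff_exists_rat).1 ⟨(n : ℚ) / Nat.card R, by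
    push_cast
    field_simp
    linear_combination -h2⟩
  rw [he] at h2
  have h4 : (n : ℤ) = Nat.card R * e := by exact_mod_cast h2
  have h5 : (Nat.card R : ℤ) ∣ n := ⟨e, h4⟩
  exact_mod_cast h5

end free

end Cfsg.Agent.H212.Ext
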