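import Cfsg.Agent.H212.Ext.U3Non

/-!
# `PSU(3,q)`, `3 ∣ q + 1`: a character of degree divisible by `q - 1` which is not invariant under the
diagonal automorphisms (helper212, S4832)
-/

set_option autoImplicit false
set_option linter.unusedSimpArgs false
set_option linter.unusedSectionVars false

namespace Cfsg.Agent.H212.Ext

open Matrix Cfsg Cfsg.Agent.LieRecognition.PSUThreeSylow Cfsg.Agent.LieClassical.HermBasic
open Cfsg.Agent.H664.R1 Cfsg.Agent.H664.R1.U3
open Cfsg.Agent.Characters.Core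

variable {F : Type*} [Field F] [Fintype F] {q : ℕ} {σ : F →+* F} [hσ : Fact (∀ x, σ (σ x) = x)]

/-- the norm one units of the fixed field -/
def Rq (F : Type*) [Field F] (q : ℕ) : Subgroup Fˣ := (powMonoidHom (q - 1) : Fˣ →* Fˣ).ker

theorem card_Rq (hF : Fintype.card F = q ^ 2) : Nat.card (Rq F q) = q - 1 := by
  rw [Rq, IsCyclic.card_powMonoidHom_ker, card_units_eq hF]
  exact Nat.gcd_eq_right (Dvd.intro_left _ rfl)

theorem Rq_spec (hF : Fintype.card F = q ^ 2) (hs : ∀ x, σ x = x ^ q) (r : Rq F q) : σ ((r : Fˣ) : F) = ((r : Fˣ) : F) := by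
  have h2 := two_le hF
  have h1 : (r : Fˣ) ^ (q - 1) = 1 := r.2
  have h3 : (r : Fˣ) ^ q = r := by
    have : (r : Fˣ) ^ q = (r : Fˣ) ^ (q - 1) * r := by rw [← pow_succ, Nat.sub_add_cancel (by omega)]
    rw [this, h1, one_mul]
  rw [hs, ← Units.val_pow_eq_pow_val, h3]

theorem del_mem_S (hF : Fintype.card F = q ^ 2) (hs : ∀ x, σ x = x ^ q) (r : Rq F q) :
    ((del σ (r : Fˣ) : (spP σ).B) : PG σ) ∈ S σ := by
  rw [del_apply]
  refine ⟨_, ?_, rfl⟩
  show (mat σ _).det = 1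
  rw [mat_dg, Matrix.det_fin_three]
  have h0 := (r : Fˣ).ne_zero
  simp [Rq_spec hF hs r, h0]

/-- the embedding of the torus of order `q - 1` -/
def rhoR (hF : Fintype.card F = q ^ 2) (hs : ∀ x, σ x = x ^ q) : Rq F q →* S σ where
  toFun r := ⟨((del σ (r : Fˣ) : (spP σ).B) : PG σ), del_mem_S hF hs r⟩
  map_one' := by
    apply Subtype.ext
    show ((del σ ((1 : Rq F q) : Fˣ) : (spP σ).B) : PG σ) = 1
    rw [Subgroup.coe_one, map_one, Subgroup.coe_one]
  map_mul' r s := by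
    apply Subtype.ext
    show ((del σ ((r * s : Rq F q) : Fˣ) : (spP σ).B) : PG σ) = _
    rw [Subgroup.coe_mul, map_mul, Subgroup.coe_mul]
    rfl

theorem coe_rhoR (hF : Fintype.card F = q ^ 2) (hs : ∀ x, σ x = x ^ q) (r : Rq F q) :
    ((rhoR hF hs r : S σ) : PG σ) = pr σ (dg ((r : Fˣ) : F) 1 (r : Fˣ).ne_zero (by rw [map_one, one_mul])) := rfl

/-- **characters of degree divisible by `q - 1` which are not invariant under the diagonal automorphism** -/
theorem exists_cusp (hF : Fintype.card F = q ^ 2) (hq : 3 ≤ q) (h3 : 3 ∣ q + 1) (hs : ∀ x, σ x = x ^ q) {s : F}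
    (hs1 : s * σ s = 1) (hsc : ∀ y : F, y ^ 3 ≠ s) :
    ∃ θ : S σ → ℂ, IsIrrCharacter (S σ) θ ∧ (q - 1) ∣ charDegree θ ∧ ∃ u, θ (cS (g0 s hs1) u) ≠ θ u := by
  classical
  have : Finite (PG σ) := inferInstance
  have := Fintype.ofFinite (PG σ)
  have := Fintype.ofFinite (S σ)
  have := Fintype.ofFinite (spS σ).U
  obtain ⟨u, hu⟩ := exists_not_conj (σ := σ) hF h3 hs hs1 hsc
  rw [Cfsg.Agent.S0136.result] at hu
  push Not at hu
  obtain ⟨χ, hχ⟩ := hu
  refine ⟨χ, χ.2, ?_, u, fun h => hχ h.symm⟩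
  obtain ⟨c, hc⟩ := cS_cube s hs1
  have h0 : classInner (fun u : (spS σ).U => (χ : S σ → ℂ) u) 1 = 0 := by
    by_contra h0
    apply hχ
    symm
    refine inv_of_fixed (spS σ) χ.2 h0 (cS (g0 s hs1)) (cS_B (g0_mem_T s hs1)) (cS_B' (g0_mem_T s hs1))
      (fun f hf => cS_f (g0_mem_T s hs1) f hf) (fun x => ?_) u
    have h4 : cS (g0 s hs1) (cS (g0 s hs1) (cS (g0 s hs1) x)) = MulAut.conj c x := by
      rw [← hc, pow_succ, pow_two]
      rfl
    rw [h4]
    exact (isIrr_isClassFunction χ.2) _ _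
  have h5 : ∑ u : (spS σ).U, (χ : S σ → ℂ) u = 0 := by
    rw [classInner_def] at h0
    simp only [Pi.one_apply, map_one, mul_one] at h0
    rcases mul_eq_zero.1 h0 with h6 | h6
    · exfalso
      rw [inv_eq_zero] at h6
      exact Nat.card_pos.ne' (by exact_mod_cast h6)
    · exact h6
  obtain ⟨n, -, hn⟩ := isIrr_apply_one χ.2
  have hcX := card_XS (σ := σ) hF hs
  have := Fintype.ofFinite (Rq F q)
  have h6 := dvd_of_cusp (spS σ) (X := XS σ) XS_le (fused hF hs) (by rw [hcX]; omega) (rhoR hF hs)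
    (by rw [card_Rq hF, hcX]) (fun r u hu => (spS σ).nU _ ?_ u hu) (fun r u hu => ?_) (fun r u hu huX h => ?_)
    χ.2 h5 hn
  · rw [card_Rq hF] at h6
    have h7 : charDegree (χ : S σ → ℂ) = n := by
      show ⌊((χ : S σ → ℂ) 1).re⌋₊ = n
      rw [hn, Complex.natCast_re, Nat.floor_natCast]
    rw [h7]
    exact h6
  · exact ⟨_, (dg_mem _ _ _ _).1, rfl⟩
  · exact hXT ⟨_, dg_mem _ _ _ _, rfl⟩ hu
  · obtain ⟨u, huS⟩ := u
    have hu' : u ∈ (Un σ).map (pr σ) := hu
    obtain ⟨v, hv, rfl⟩ := hu'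
    obtain ⟨a, b, hab, rfl⟩ := exists_un hv
    have ha : a ≠ 0 := by
      rintro rfl
      exact huX ⟨_, ⟨un_mem _ _ _, rfl⟩, rfl⟩
    have hr1 : (1 : F) * σ 1 = 1 := by rw [map_one, one_mul]
    have h8 : pr σ (dg ((r : Fˣ) : F) 1 (r : Fˣ).ne_zero hr1) * pr σ (un a b hab) *
        (pr σ (dg ((r : Fˣ) : F) 1 (r : Fˣ).ne_zero hr1))⁻¹ = pr σ (un a b hab) := congrArg Subtype.val h
    rw [← map_inv, ← map_mul, ← map_mul,
      dg_conj_un ((r : Fˣ) : F) 1 (r : Fˣ).ne_zero hr1 a b hab (conj_rel hr1 hab)] at h8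
    have h9 := pr_eq_of_Un (un_mem _ _ _) (un_mem _ _ _) h8
    have h10 := congrFun (congrFun (congrArg (mat σ) h9) 0) 1
    rw [mat_un, mat_un] at h10
    have h11 : ((r : Fˣ) : F) * a = a := by simpa using h10
    have h12 : ((r : Fˣ) : F) = 1 := by
      have : (((r : Fˣ) : F) - 1) * a = 0 := by linear_combination h11
      exact sub_eq_zero.1 ((mul_eq_zero.1 this).resolve_right ha)
    exact Subtype.ext (Units.ext h12)

end Cfsg.Agent.H212.Ext
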