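import Cfsg.Agent.LieClassical.HermBasic

/-!
# Arithmetic of the field with `q²` elements (helper212, S4832)
-/

set_option autoImplicit false
set_option linter.unusedSectionVars false

namespace Cfsg.Agent.H212.Ext

open Cfsg.Agent.LieClassical.HermBasic

variable {F : Type*} [Field F] [Fintype F] {q : ℕ}

/-- a faithful character of a finite cyclic group -/
theorem exists_faithful (A : Type*) [CommGroup A] [Finite A] [IsCyclic A] : ∃ χ : A →* ℂˣ, Function.Injective χ := by
  obtain ⟨g, hg⟩ := IsCyclic.exists_generator (α := A)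
  have hn : Nat.card A ≠ 0 := Nat.card_pos.ne'
  have hz := Complex.isPrimitiveRoot_exp (Nat.card A) hn
  have hu := hz.isUnit hn
  have hz' : IsPrimitiveRoot hu.unit (Nat.card A) := by
    rw [← IsPrimitiveRoot.coe_units_iff]
    exact hz
  have ho : orderOf g = Nat.card A := orderOf_eq_card_of_forall_mem_zpowers hg
  have ho' : orderOf hu.unit = Nat.card A := hz'.eq_orderOf.symm
  refine ⟨monoidHomOfForallMemZpowers hg (g' := hu.unit) (by rw [ho, ho']), ?_⟩
  rw [injective_iff_map_eq_one]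
  intro x hx
  obtain ⟨k, rfl⟩ := Subgroup.mem_zpowers_iff.1 (hg x)
  rw [map_zpow, monoidHomOfForallMemZpowers_apply_gen, ← orderOf_dvd_iff_zpow_eq_one, ho', ← ho] at hx
  exact orderOf_dvd_iff_zpow_eq_one.1 hx

/-- sums of two complex numbers of norm one -/
theorem sum_unit {a b c d : ℂ} (ha : a * (starRingEnd ℂ) a = 1) (hb : b * (starRingEnd ℂ) b = 1)
    (hc : c * (starRingEnd ℂ) c = 1) (hd : d * (starRingEnd ℂ) d = 1) (h : a + b = c + d) :
    a + b = 0 ∨ a = c ∨ a = d := by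
  by_cases h0 : a + b = 0
  · exact Or.inl h0
  right
  have h1 : (starRingEnd ℂ) a + (starRingEnd ℂ) b = (starRingEnd ℂ) c + (starRingEnd ℂ) d := by
    rw [← map_add, ← map_add, h]
  have h2 : a + b = (a * b) * ((starRingEnd ℂ) a + (starRingEnd ℂ) b) := by
    linear_combination -(b * ha) - a * hb
  have h3 : c + d = (c * d) * ((starRingEnd ℂ) c + (starRingEnd ℂ) d) := by
    linear_combination -(d * hc) - c * hd
  have h4 : (a + b) * (c * d - a * b) = 0 := by
    have h5 : (c * d - a * b) * ((starRingEnd ℂ) a + (starRingEnd ℂ) b) = 0 := by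
      have e1 : (c * d) * ((starRingEnd ℂ) a + (starRingEnd ℂ) b) = c + d := by rw [h1, ← h3]
      linear_combination e1 + h2 - h
    rcases mul_eq_zero.1 h5 with h6 | h6
    · rw [h6, mul_zero]
    · rw [h6, mul_zero] at h2
      exact absurd h2 h0
  have h5 : c * d - a * b = 0 := (mul_eq_zero.1 h4).resolve_left h0
  have h6 : (a - c) * (a - d) = 0 := by linear_combination a * h + h5
  rcases mul_eq_zero.1 h6 with h7 | h7
  · exact Or.inl (sub_eq_zero.1 h7)
  · exact Or.inr (sub_eq_zero.1 h7)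

theorem order_gen (hF : Fintype.card F = q ^ 2) {γ : Fˣ} (hγ : ∀ x, x ∈ Subgroup.zpowers γ) :
    orderOf γ = (q + 1) * (q - 1) := by
  rw [orderOf_eq_card_of_forall_mem_zpowers hγ, card_units_eq hF]

/-- powers of the generator -/
theorem gen_pow_ne (hF : Fintype.card F = q ^ 2) {γ : Fˣ} (hγ : ∀ x, x ∈ Subgroup.zpowers γ) {m : ℕ} (h0 : 0 < m)
    (hm : m < (q + 1) * (q - 1)) : γ ^ m ≠ 1 := by
  intro h
  have h1 := orderOf_dvd_of_pow_eq_one h
  rw [order_gen hF hγ] at h1
  exact absurd (Nat.le_of_dvd h0 h1) (by omega)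

/-- an element of norm one which is not a cube -/
theorem exists_norm_not_cube (hF : Fintype.card F = q ^ 2) (h3 : 3 ∣ q + 1) :
    ∃ s : F, s * s ^ q = 1 ∧ ∀ y : F, y ^ 3 ≠ s := by
  obtain ⟨γ, hγ⟩ := IsCyclic.exists_generator (α := Fˣ)
  have ho := order_gen hF hγ
  have h2 := two_le hF
  refine ⟨((γ ^ (q - 1) : Fˣ) : F), ?_, ?_⟩
  · rw [← Units.val_pow_eq_pow_val, ← Units.val_mul, ← pow_mul, ← pow_add]
    have : q - 1 + (q - 1) * q = (q + 1) * (q - 1) := by
      obtain ⟨m, rfl⟩ : ∃ m, q = m + 1 := ⟨q - 1, by omega⟩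
      simp only [Nat.add_sub_cancel]
      ring
    rw [this, ← ho, pow_orderOf_eq_one, Units.val_one]
  · intro y hy
    have hy0 : y ≠ 0 := by
      rintro rfl
      rw [zero_pow (by norm_num)] at hy
      exact (Units.ne_zero _) hy.symm
    obtain ⟨k, hk⟩ := hγ (Units.mk0 y hy0)
    have hk' : γ ^ k = Units.mk0 y hy0 := hk
    have h4 : γ ^ (3 * k - (q - 1 : ℕ) : ℤ) = 1 := by
      have e1 : (3 * k : ℤ) = k * 3 := mul_comm _ _
      have e2 : γ ^ (k * 3) = Units.mk0 y hy0 ^ 3 := by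
        rw [zpow_mul, hk']
        exact zpow_natCast (Units.mk0 y hy0) 3
      rw [zpow_sub, e1, e2, zpow_natCast, mul_inv_eq_one]
      apply Units.ext
      rw [← hy, Units.val_pow_eq_pow_val, Units.val_mk0]
    have h5 := orderOf_dvd_iff_zpow_eq_one.2 h4
    rw [ho] at h5
    have h6 : (3 : ℤ) ∣ 3 * k - (q - 1 : ℕ) := by
      refine dvd_trans ?_ h5
      push_cast
      exact Dvd.dvd.mul_right (by exact_mod_cast h3) _
    omega

/-- norms are cubes -/
theorem norm_cube {y : F} (hq : 3 ∣ q + 1) (_h2 : 2 ≤ q) (hy : y ^ q = y) (h0 : y ≠ 0) : ∃ z : F, z ^ 3 = y := by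
  refine ⟨y ^ ((2 * q - 1) / 3), ?_⟩
  rw [← pow_mul, Nat.div_mul_cancel (by omega)]
  have h1 : 2 * q - 1 = q + (q - 1) := by omega
  have h3 : y ^ (q - 1) = 1 := by
    have : y ^ (q - 1) * y = 1 * y := by rw [← pow_succ, Nat.sub_add_cancel (by omega), hy, one_mul]
    exact mul_right_cancel₀ h0 this
  rw [h1, pow_add, h3, mul_one, hy]

end Cfsg.Agent.H212.Ext
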