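import Cfsg.Agent.H212.Ext.U3Aut
import Cfsg.Agent.H212.Ext.U3Fld
import Cfsg.Agent.H212.Ext.SplitAut
import Cfsg.Agent.S0136

/-!
# `PSU(3,q)`, `3 ∣ q + 1`: characters which are not invariant under the diagonal automorphisms (helper212, S4832)
-/

set_option autoImplicit false
set_option linter.unusedSimpArgs false
set_option linter.unusedSectionVars false

namespace Cfsg.Agent.H212.Ext

open Matrix Cfsg Cfsg.Agent.LieRecognition.PSUThreeSylow Cfsg.Agent.LieClassical.HermBasic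
open Cfsg.Agent.H664.R1 Cfsg.Agent.H664.R1.U3
open Cfsg.Agent.Characters.Core

section general

variable {F : Type*} [Field F] {σ : F →+* F} [hσ : Fact (∀ x, σ (σ x) = x)]

theorem g0_mem_T (s : F) (hs : s * σ s = 1) : g0 s hs ∈ (spP σ).T := ⟨_, dg_mem _ _ _ _, rfl⟩

theorem mem_BS {x : S σ} : x ∈ (spS σ).B ↔ (x : PG σ) ∈ (spP σ).B := Iff.rfl

theorem mem_US {x : S σ} : x ∈ (spS σ).U ↔ (x : PG σ) ∈ (spP σ).U := Iff.rfl

theorem mem_TS {x : S σ} : x ∈ (spS σ).T ↔ (x : PG σ) ∈ (spP σ).T := Iff.rfl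

/-- `g ∈ T` acts on `B` -/
theorem cS_B {g : PG σ} (hg : g ∈ (spP σ).T) (b : S σ) (hb : b ∈ (spS σ).B) : cS g b ∈ (spS σ).B :=
  (spP σ).B.mul_mem ((spP σ).B.mul_mem ((spP σ).TB hg) hb) ((spP σ).B.inv_mem ((spP σ).TB hg))

theorem cS_B' {g : PG σ} (hg : g ∈ (spP σ).T) (b : S σ) (hb : cS g b ∈ (spS σ).B) : b ∈ (spS σ).B := by
  have h1 := cS_B ((spP σ).T.inv_mem hg) _ hb
  rw [← MulAut.mul_apply, ← map_mul, inv_mul_cancel, map_one] at h1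
  exact h1

/-- the linear characters of `B` trivial on `U` are invariant under `T` -/
theorem cS_f {g : PG σ} (hg : g ∈ (spP σ).T) (f : (spS σ).B →* ℂˣ)
    (hf : ∀ b : (spS σ).B, (b : S σ) ∈ (spS σ).U → f b = 1) (b : S σ) (hb : b ∈ (spS σ).B) :
    f ⟨cS g b, cS_B hg b hb⟩ = f ⟨b, hb⟩ := by
  obtain ⟨u, hu, t, ht, rfl⟩ := (spS σ).dec b hb
  have hu' : cS g u ∈ (spS σ).U := (spP σ).nU g ((spP σ).TB hg) u hu
  have ht' : cS g t = t := by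
    apply Subtype.ext
    rw [coe_cS, (spP σ).comm g hg t ht, mul_inv_cancel_right]
  have e1 : (⟨cS g (u * t), cS_B hg _ hb⟩ : (spS σ).B) = ⟨cS g u, (spS σ).UB hu'⟩ * ⟨t, (spS σ).TB ht⟩ := by
    apply Subtype.ext
    show cS g (u * t) = cS g u * t
    rw [map_mul, ht']
  have e2 : (⟨u * t, hb⟩ : (spS σ).B) = ⟨u, (spS σ).UB hu⟩ * ⟨t, (spS σ).TB ht⟩ := rfl
  rw [e1, e2, map_mul, map_mul, hf ⟨cS g u, (spS σ).UB hu'⟩ hu', hf ⟨u, (spS σ).UB hu⟩ hu]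

/-- the cube of the diagonal automorphism is inner -/
theorem cS_cube (s : F) (hs : s * σ s = 1) : ∃ c : S σ, cS (g0 s hs) ^ 3 = MulAut.conj c :=
  ⟨⟨_, g0_cube s hs⟩, by rw [← map_pow, ← cS_coe]⟩

theorem pr_eq_of_Un {u v : GUJ σ} (hu : u ∈ Un σ) (hv : v ∈ Un σ) (h : pr σ u = pr σ v) : u = v := by
  have h1 : u⁻¹ * v ∈ Sc σ := (QuotientGroup.eq (s := Sc σ)).1 h
  have h2 : u⁻¹ * v = 1 := (split' σ).disj _ ((Un σ).mul_mem ((Un σ).inv_mem hu) hv) (Sc_le h1)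
  rwa [inv_mul_eq_one] at h2

/-- the elements of `B` in `S` -/
theorem exists_Bo {x : PG σ} (hx : x ∈ S σ) (hB : x ∈ (spP σ).B) : ∃ y ∈ Bo σ, y ∈ SUs σ ∧ pr σ y = x := by
  obtain ⟨y, hy, rfl⟩ := hx
  obtain ⟨b, hb, hby⟩ := hB
  refine ⟨y, ?_, hy, rfl⟩
  have h1 : b⁻¹ * y ∈ Sc σ := (QuotientGroup.eq (s := Sc σ)).1 hby
  have h2 : b⁻¹ * y ∈ Bo σ := (Sc_le h1).1
  have h3 := (Bo σ).mul_mem hb h2
  rwa [mul_inv_cancel_left] at h3

/-- the quotient of the first two diagonal entries is a cube times a norm -/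
theorem entry_SUs {y : GUJ σ} (hy : y ∈ Bo σ) (hS : y ∈ SUs σ) :
    mat σ y 0 0 ≠ 0 ∧ mat σ y 1 1 ≠ 0 ∧
      mat σ y 0 0 * (mat σ y 0 0 * σ (mat σ y 0 0)) = (mat σ y 0 0) ^ 3 * mat σ y 1 1 := by
  have h0 := det_of_Up hy
  rw [mem_SUs] at hS
  rw [hS] at h0
  obtain ⟨h1, h2, h3⟩ := hy
  have e02 := entry y 0 2
  have hJ2 : Jm F 0 2 = 1 := rfl
  rw [h1, h2, hJ2] at e02
  have e02' : mat σ y 0 0 * σ (mat σ y 2 2) = 1 := by linear_combination e02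
  have e02'' : σ (mat σ y 0 0) * mat σ y 2 2 = 1 := by
    have := congrArg σ e02'
    rwa [map_mul, hσ.out, map_one] at this
  refine ⟨left_ne_zero_of_mul_eq_one e02', ?_, ?_⟩
  · intro h
    rw [h] at h0
    simp at h0
  · linear_combination (mat σ y 0 0) ^ 2 * σ (mat σ y 0 0) * h0 + (mat σ y 0 0) ^ 3 * mat σ y 1 1 * e02''

/-- conjugate elements of `U` in a rank one group are conjugate in `B` -/
theorem mem_B_of_conj {G : Type*} [Group G] (D : Split G) {u v x : G} (hu : u ∈ D.U) (hv : v ∈ D.U) (hu1 : u ≠ 1)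
    (h : x * u * x⁻¹ = v) : x ∈ D.B := by
  by_contra hx
  obtain ⟨b, hb, c, hc, rfl⟩ := D.big x hx
  obtain ⟨y, hy, t, ht, rfl⟩ := D.dec b hb
  have h1 : y * t * D.w * c = y * D.w * (D.w⁻¹ * t * D.w * c) := by group
  rw [h1] at h
  have h2 : D.w⁻¹ * t * D.w * c ∈ D.B := D.B.mul_mem (D.TB (D.wT t ht)) hc
  have h3 : (y * D.w * (D.w⁻¹ * t * D.w * c))⁻¹ * v * (y * D.w * (D.w⁻¹ * t * D.w * c)) = u := by
    rw [← h]; group
  have h4 := D.eq_one_of_conj (v := v) h2 hy hv (by rw [h3]; exact D.UB hu)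
  rw [h4, mul_one, inv_mul_cancel] at h3
  exact hu1 h3.symm

end general

section finite

variable {F : Type*} [Field F] [Fintype F] {q : ℕ} {σ : F →+* F} [hσ : Fact (∀ x, σ (σ x) = x)]

/-- **a class of `S` which is not invariant under the diagonal automorphism** -/
theorem exists_not_conj (hF : Fintype.card F = q ^ 2) (h3 : 3 ∣ q + 1) (hs : ∀ x, σ x = x ^ q) {s : F}
    (hs1 : s * σ s = 1) (hsc : ∀ y : F, y ^ 3 ≠ s) : ∃ u : S σ, ¬ IsConj u (cS (g0 s hs1) u) := by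
  have h2 := two_le hF
  obtain ⟨b, hb⟩ := exists_snd (σ := σ) hF hs 1
  have huU : pr σ (un 1 b hb) ∈ (spP σ).U := ⟨_, un_mem _ _ _, rfl⟩
  refine ⟨⟨pr σ (un 1 b hb), U_le_S huU⟩, ?_⟩
  intro hc
  rw [isConj_iff] at hc
  obtain ⟨x, hx⟩ := hc
  have hx' : (x : PG σ) * pr σ (un 1 b hb) * (x : PG σ)⁻¹ = g0 s hs1 * pr σ (un 1 b hb) * (g0 s hs1)⁻¹ :=
    congrArg Subtype.val hx
  have hgB : g0 s hs1 ∈ (spP σ).B := (spP σ).TB (g0_mem_T s hs1)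
  have hne : pr σ (un 1 b hb) ≠ 1 := by
    intro h
    have h1 := pr_eq_of_Un (un_mem _ _ _) (Un σ).one_mem (h.trans (map_one _).symm)
    have h4 := congrFun (congrFun (congrArg (mat σ) h1) 0) 1
    rw [mat_un, mat_one] at h4
    simp at h4
  have hxB : (x : PG σ) ∈ (spP σ).B := mem_B_of_conj (spP σ) huU ((spP σ).nU _ hgB _ huU) hne hx'
  obtain ⟨y, hyB, hyS, hyx⟩ := exists_Bo x.2 hxB
  rw [← hyx] at hx'
  have hrel := conj_rel (t := 1) hs1 hb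
  have e1 : dg 1 s one_ne_zero hs1 * un 1 b hb * (dg 1 s one_ne_zero hs1)⁻¹ = un _ _ hrel :=
    dg_conj_un 1 s one_ne_zero hs1 1 b hb hrel
  have h5 : pr σ (y * un 1 b hb * y⁻¹) = pr σ (un _ _ hrel) := by
    rw [← e1, map_mul, map_mul, map_inv, hx', g0, map_mul, map_mul, map_inv]
  have h6 : y * un 1 b hb * y⁻¹ ∈ Un σ := (split' σ).nU y hyB _ (un_mem _ _ _)
  have h7 := pr_eq_of_Un h6 (un_mem _ _ _) h5
  rw [mul_inv_eq_iff_eq_mul] at h7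
  have h8 := congrFun (congrFun (congrArg (mat σ) h7) 0) 1
  obtain ⟨k1, k2, k3⟩ := hyB
  rw [mul_entry, mul_entry, mat_un, mat_un] at h8
  simp [k1, k2, k3] at h8
  obtain ⟨n1, n2, n3⟩ := entry_SUs ⟨k1, k2, k3⟩ hyS
  -- `σ s` is a cube
  obtain ⟨z, hz⟩ : ∃ z : F, z ^ 3 = mat σ y 0 0 * σ (mat σ y 0 0) := by
    refine norm_cube h3 h2 ?_ (mul_ne_zero n1 ((map_ne_zero σ).2 n1))
    rw [← hs, map_mul, hσ.out, mul_comm]
  have hz0 : z ≠ 0 := by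
    rintro rfl
    rw [zero_pow (by norm_num)] at hz
    exact (mul_ne_zero n1 ((map_ne_zero σ).2 n1)) hz.symm
  apply hsc (σ (mat σ y 0 0 / z))
  rw [← map_pow, div_pow, hz]
  have h9 : mat σ y 0 0 = σ s * mat σ y 1 1 := by linear_combination h8
  have h10 : mat σ y 0 0 ^ 3 / (mat σ y 0 0 * σ (mat σ y 0 0)) = σ s := by
    rw [div_eq_iff (mul_ne_zero n1 ((map_ne_zero σ).2 n1))]
    apply mul_right_cancel₀ n2
    rw [← n3]
    linear_combination (mat σ y 0 0 * σ (mat σ y 0 0)) * h9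
  rw [h10, hσ.out]

end finite

end Cfsg.Agent.H212.Ext
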