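import Cfsg.Agent.H212.Ext.OutLem
import Cfsg.Agent.H212.Ext.U3Cusp
import Cfsg.Agent.H212.Ext.U3Ps
import Cfsg.Agent.H67.ExtBase
import Cfsg.Agent.H907.ExtFree
import Cfsg.Agent.H525.ExtMult

/-!
# S4832: the row `PSU(3,q)` (helper212)

`row_psu_three` : for a prime `p` not dividing `q`, `p ∣ |PSU(3,q)|`, some irreducible character of degree divisible
by `p` extends to its stabiliser in the automorphism group.
-/

set_option autoImplicit false
set_option linter.unusedSectionVars false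

open Cfsg

namespace Cfsg.Agent.H212.Ext

open Cfsg.Agent.H576.Ext Cfsg.Agent.H664.R1 Cfsg.Agent.H664.R1.U3 Cfsg.Agent.LieClassical.HermBasic

universe u v

section out

variable {S : Type u} [Group S] {S' : Type v} [Group S'] {C : Type*} [Group C]

/-- the homomorphism on `Aut S` -/
def psi (e : S ≃* S') (φ : Out S' →* C) : MulAut S →* C :=
  φ.comp ((QuotientGroup.mk' (Inn S')).comp (MulAut.congr e).toMonoidHom)

theorem psi_conj (e : S ≃* S') (φ : Out S' →* C) (s : S) : psi e φ (MulAut.conj s) = 1 := by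
  have h1 : MulAut.congr e (MulAut.conj s) = MulAut.conj (e s) := by
    ext x
    show e (s * e.symm x * s⁻¹) = e s * x * (e s)⁻¹
    rw [map_mul, map_mul, map_inv, e.apply_symm_apply]
  have h2 : QuotientGroup.mk' (Inn S') (MulAut.congr e (MulAut.conj s)) = 1 := by
    rw [h1]
    exact (QuotientGroup.eq_one_iff _).2 ⟨_, rfl⟩
  show φ (QuotientGroup.mk' (Inn S') (MulAut.congr e (MulAut.conj s))) = 1
  rw [h2, map_one]

theorem relIndex_psi (e : S ≃* S') (φ : Out S' →* C) :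
    (MulAut.conj (G := S)).range.relIndex (psi e φ).ker = Nat.card φ.ker := by
  let g : MulAut S →* Out S' := (QuotientGroup.mk' (Inn S')).comp (MulAut.congr e).toMonoidHom
  have hg : Function.Surjective g := by
    intro x
    obtain ⟨α, rfl⟩ := QuotientGroup.mk'_surjective (Inn S') x
    obtain ⟨β, rfl⟩ := (MulAut.congr e).surjective α
    exact ⟨β, rfl⟩
  have h1 : (MulAut.conj (G := S)).range = (⊥ : Subgroup (Out S')).comap g := by
    ext α
    rw [Subgroup.mem_comap, Subgroup.mem_bot]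
    constructor
    · rintro ⟨s, rfl⟩
      exact psi_conj e (MonoidHom.id (Out S')) s
    · intro h
      have h2 : MulAut.congr e α ∈ Inn S' := (QuotientGroup.eq_one_iff _).1 h
      obtain ⟨s', hs'⟩ := h2
      obtain ⟨s, rfl⟩ := e.surjective s'
      refine ⟨s, ?_⟩
      apply (MulAut.congr e).injective
      rw [← hs']
      ext x
      show e (s * e.symm x * s⁻¹) = e s * x * (e s)⁻¹
      rw [map_mul, map_mul, map_inv, e.apply_symm_apply]
  have h2 : (psi e φ).ker = φ.ker.comap g := rfl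
  rw [h1, h2, Subgroup.relIndex_comap, Subgroup.map_comap_eq_self_of_surjective hg, Subgroup.relIndex_bot_left]

end out

variable {F : Type*} [Field F] [Fintype F] {q : ℕ} {σ : F →+* F} [hσ : Fact (∀ x, σ (σ x) = x)]

theorem exists_tau (hF : Fintype.card F = q ^ 2) {r k : ℕ} (hr : r.Prime) [CharP F r] (hq : q = (r ^ k) ^ 3)
    (hs : ∀ x, σ x = x ^ q) : ∃ τ : F ≃+* F, (∀ x, τ (σ x) = σ (τ x)) ∧ (∀ x, τ x = x ^ (r ^ k) ^ 2) ∧
      ∀ x, τ (τ (τ x)) = x := by
  have hfr : Fact r.Prime := ⟨hr⟩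
  have : PerfectRing F r := inferInstance
  refine ⟨iterateFrobeniusEquiv F r (k * 2), fun x => ?_, fun x => ?_, fun x => ?_⟩
  · rw [hs, hs, map_pow]
  · rw [iterateFrobeniusEquiv_def, pow_mul]
  · rw [iterateFrobeniusEquiv_def, iterateFrobeniusEquiv_def, iterateFrobeniusEquiv_def, ← pow_mul, ← pow_mul,
      ← pow_add, ← pow_add]
    have h1 := FiniteField.pow_card x
    rw [hF, hq] at h1
    have e1 : r ^ (k * 2 + (k * 2 + k * 2)) = ((r ^ k) ^ 3) ^ 2 := by
      rw [← pow_mul, ← pow_mul]; ring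
    rw [e1, h1]

/-- the bad case, in the model `S σ` -/
theorem row_bad (hF : Fintype.card F = q ^ 2) (hq : 3 ≤ q) (hs : ∀ x, σ x = x ^ q) (h3 : 3 ∣ q + 1) {r k : ℕ}
    (hr : r.Prime) [CharP F r] (hk : 0 < k) (hqr : q = (r ^ k) ^ 3) (hZ : Subgroup.center (S σ) = ⊥) {C : Type*} [CommGroup C]
    [IsCyclic C] [Finite C] (φ : Out (Cfsg.PSU 3 F q) →* C) (hφ : Nat.card φ.ker = 3) {p : ℕ} (hp : p.Prime)
    (hpq : ¬ p ∣ q) (hd : p ∣ Nat.card (S σ)) : HasExt p (S σ) := by
  have : Finite (PG σ) := inferInstance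
  obtain ⟨e⟩ := nonempty_iso (σ := σ) hF hs
  have h3i := relIndex_psi e.symm φ
  rw [hφ] at h3i
  obtain ⟨s, hs1', hsc⟩ := exists_norm_not_cube hF h3
  have hs1 : s * σ s = 1 := by rw [hs]; exact hs1'
  -- the diagonal automorphism
  have hδ : cS (g0 s hs1) ∈ (psi e.symm φ).ker := by
    rw [MonoidHom.mem_ker]
    have h1 := congrArg (psi e.symm φ) (fS_conj (sigE σ) sigE_comm (g0 s hs1))
    rw [g0_inv, map_mul, map_mul, map_inv (psi e.symm φ), map_inv (cS : PG σ →* MulAut (S σ)), map_inv (psi e.symm φ)] at h1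
    obtain ⟨c, hc⟩ := cS_cube s hs1
    have h2 := congrArg (psi e.symm φ) hc
    rw [map_pow, psi_conj] at h2
    have h4 : psi e.symm φ (cS (g0 s hs1)) = (psi e.symm φ (cS (g0 s hs1)))⁻¹ := by
      rw [← h1, mul_comm (psi e.symm φ (fS (sigE σ) sigE_comm)), mul_inv_cancel_right]
    generalize psi e.symm φ (cS (g0 s hs1)) = x at h2 h4
    have h5 : x * x = 1 := mul_eq_one_iff_eq_inv.2 h4
    rw [pow_succ, pow_two, h5, one_mul] at h2
    exact h2
  obtain ⟨u, hu⟩ := exists_not_conj (σ := σ) hF h3 hs hs1 hsc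
  have hδI : cS (g0 s hs1) ∉ (MulAut.conj (G := S σ)).range := by
    rintro ⟨c, hc⟩
    apply hu
    rw [← hc, isConj_iff]
    exact ⟨c, rfl⟩
  -- the prime
  have hcase : p ∣ q - 1 ∨ p ∣ q ^ 3 + 1 := by
    have h1 := hd.trans (card_S (σ := σ) hF hs)
    rcases hp.dvd_mul.1 h1 with h | h
    · exact Or.inr h
    rcases hp.dvd_mul.1 h with h | h
    · exact absurd (hp.dvd_of_dvd_pow h) hpq
    · have h2 : q ^ 2 - 1 = (q + 1) * (q - 1) := by
        have := Nat.sq_sub_sq q 1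
        simpa using this
      rw [h2] at h
      rcases hp.dvd_mul.1 h with h | h
      · right
        refine h.trans ⟨q ^ 2 - q + 1, ?_⟩
        have h3 : q ≤ q ^ 2 := by nlinarith
        zify [h3]
        ring
      · exact Or.inl h
  rcases hcase with h | h
  · obtain ⟨θ, hθ, hdeg, v, hv⟩ := exists_cusp (σ := σ) hF hq h3 hs hs1 hsc
    have hI := range_le_stab (Characters.Core.isIrr_isClassFunction hθ)
    refine ⟨θ, hθ, h.trans hdeg, extTo_of_sylCyc hZ hθ hI le_rfl ?_⟩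
    exact sylCycIn_one (psi e.symm φ) h3i hI hδ fun hmem => hv (hmem v)
  · have h2 : 2 ≤ r ^ k := by
      calc 2 ≤ r := hr.two_le
        _ ≤ r ^ k := Nat.le_self_pow hk.ne' r
    obtain ⟨τ, hτ, hτ', hτ3⟩ := exists_tau hF hr hqr hs
    obtain ⟨θ, hθ, hdeg, hinv, v, hv⟩ := exists_ps hF h2 hqr hs τ hτ hτ'
    have hI := range_le_stab (Characters.Core.isIrr_isClassFunction hθ)
    refine ⟨θ, hθ, by rw [hdeg]; exact h, extTo_of_sylCyc hZ hθ hI le_rfl ?_⟩
    refine sylCycIn_two (psi e.symm φ) h3i (τ := fS τ hτ) hI hδ hδI (fun x => hinv _ (g0_mem_T s hs1) x) ?_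
      fun hmem => hv (hmem v)
    rw [← map_pow]
    have h5 : fS τ hτ ^ 3 = 1 := by
      apply MulEquiv.ext
      intro x
      apply Subtype.ext
      obtain ⟨g, hg⟩ := QuotientGroup.mk'_surjective (Sc σ) (x : PG σ)
      rw [pow_succ, pow_two]
      show fP τ hτ (fP τ hτ (fP τ hτ (x : PG σ))) = x
      rw [← hg]
      show pr σ (fG τ hτ (fG τ hτ (fG τ hτ g))) = pr σ g
      congr 1
      apply mat_inj
      ext i j
      exact hτ3 _
    rw [h5, map_one]

/-- **`PSU(3,q)`** -/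
theorem row_psu_three {X : Type u} [Group X] [Finite X] [IsSimpleGroup X] (hna : ¬ IsMulCommutative X)
    {F : Type*} [Field F] [Fintype F] {q : ℕ} (hF : Fintype.card F = q ^ 2) (hq : 3 ≤ q) (e : X ≃* Cfsg.PSU 3 F q)
    {p : ℕ} (hp : p.Prime) (hpq : ¬ p ∣ q) (hd : p ∣ Nat.card X) : HasExt p X := by
  obtain ⟨r, f, hr, hc, hqr, hf⟩ := exists_prime_pow hF
  have hfr : Fact r.Prime := ⟨hr⟩
  by_cases hcop : Nat.Coprime (Nat.gcd 3 (q + 1)) (2 * f)
  · refine hasExt_of_sylCyc hna ?_ (U3.im hF hq e hp hd)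
    exact SylCyc.of_equiv e (H907.ExtFree.sylCyc_psu hr hf hqr hF le_rfl (by omega) hcop)
  have h3 : 3 ∣ q + 1 := by
    by_contra h
    apply hcop
    rw [(Nat.Prime.coprime_iff_not_dvd Nat.prime_three).2 h]
    exact Nat.coprime_one_left _
  have hg : Nat.gcd 3 (q + 1) = 3 := Nat.gcd_eq_left h3
  rw [hg, Nat.Prime.coprime_iff_not_dvd Nat.prime_three, not_not] at hcop
  obtain ⟨k, hk⟩ : 3 ∣ f := by omega
  obtain ⟨σ, hσ, hs, ⟨e'⟩⟩ := exists_iso hF
  obtain ⟨φ, hφ, -, hker⟩ := Cfsg.Agent.S2603.result (K := F) (p := r) hf hqr hF le_rfl (by omega)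
  have : NeZero (2 * f) := ⟨by omega⟩
  let ee : X ≃* S σ := e.trans e'
  have hsS : IsSimpleGroup (S σ) := ee.isSimpleGroup_congr.1 inferInstance
  have hZ : Subgroup.center (S σ) = ⊥ := center_eq_bot (fun h => hna ⟨⟨fun x y => ee.injective (by
    rw [map_mul, map_mul]; exact h.is_comm.comm _ _)⟩⟩)
  refine HasExt.of_equiv ee (row_bad (σ := σ) hF hq hs h3 hr (k := k) (by omega) ?_ hZ φ (by rw [hker, hg]) hp hpq ?_)
  · rw [hqr, hk, ← pow_mul, mul_comm]
  · rwa [← Nat.card_congr ee.toEquiv]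

end Cfsg.Agent.H212.Ext
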